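import Mathlib
import Cfsg.Agent.H431.CS.Defs
import Cfsg.Agent.H977.CS.OrthInd
import Cfsg.Agent.H977.CS.SympTransv
import Cfsg.Agent.LieClassical.OmegaReindex
import Cfsg.Agent.S0245
import Cfsg.Agent.S0292

/-!
# S3677 SEP-BC: `PSp(2n, q)` and `Omega(2n+1, q)`, `q` odd, `3 ≤ n`, have different class sizes (helper977)

`PSp(2n, q)` has a class of size `(q ^ (2n) - 1) / 2` (transvections); the classes `≠ 1` of `Omega(2n+1, q)` of size
prime to `p` have size at least `q ^ (4n - 6)`.
-/

set_option autoImplicit false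

namespace Cfsg.Agent.H977.SepBC

open Cfsg Cfsg.Agent.LieClassical.OmegaReindex Cfsg.Agent.H370.AAM Cfsg.Agent.H431.CS

universe v

theorem fr_quadOdd (F : Type v) [Field F] {n : ℕ} (hn : 2 ≤ n) :
    Fr (quadOdd n F) (Pi.single (.inr (.inl ⟨0, by omega⟩)) 1) (Pi.single (.inr (.inr ⟨0, by omega⟩)) 1)
      (Pi.single (.inr (.inl ⟨1, by omega⟩)) 1) (Pi.single (.inr (.inr ⟨1, by omega⟩)) 1) := by
  constructor
  all_goals first
    | (rw [coe_quadOdd]; simp [quadFormOdd, Pi.single_apply])
    | (rw [polar_quadOdd]; simp [Pi.single_apply])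

theorem card_psp_eq {F : Type v} [Field F] [Fintype F] {n : ℕ} (hn : 3 ≤ n) (hodd : Odd (Fintype.card F)) :
    Nat.card (PSp n F) = Nat.card (POmega F (quadFormOdd n F)) := by
  have h1 := S0292.result rfl hodd n hn
  have h2 := S0245.result (F := F) rfl n
  have h3 := ClassicalGeometry.AutPSpCount.card_sp (F := F) (m := n) (by omega)
  have h4 : Nat.gcd 2 (Fintype.card F - 1) = 2 := by
    apply Nat.gcd_eq_left
    obtain ⟨k, hk⟩ := hodd
    exact ⟨k, by omega⟩
  rw [h4] at h3
  omega

/-- the odd dimensional `POmega` is `Omega` -/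
theorem nonempty_pomega {F : Type v} [Field F] [Fintype F] {n : ℕ} (hn : 3 ≤ n) (h2 : (2 : F) ≠ 0) :
    Nonempty (POmega F (quadFormOdd n F) ≃* Omega F (⇑(quadOdd n F))) := by
  have h := LieClassical.OrthCenter.center_omega_eq_bot_of_odd (Q := quadOdd n F) h2 (quadOdd_nondegenerate h2)
    (by simp; omega) (by simp only [Fintype.card_sum, Fintype.card_unit, Fintype.card_fin]; exact ⟨n, by omega⟩)
    (quadOdd_isotropic (by omega))
  rw [← coe_quadOdd]
  exact ⟨(QuotientGroup.quotientMulEquivOfEq h).trans QuotientGroup.quotientBot⟩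

theorem sep_BC {F : Type v} [Field F] [Fintype F] {n : ℕ} (hn : 3 ≤ n) (hodd : Odd (Fintype.card F)) :
    Co (PSp n F) ≠ Co (POmega F (quadFormOdd n F)) := by
  intro hco
  obtain ⟨p, hchar⟩ := CharP.exists F
  have hp : p.Prime := (CharP.char_is_prime_or_zero F p).resolve_right
    (CharP.char_ne_zero_of_finite F p)
  have : Fact p.Prime := ⟨hp⟩
  obtain ⟨k, hkp, hq⟩ := FiniteField.card F p
  have hk0 : (k : ℕ) ≠ 0 := k.ne_zero
  have hp2 : p ≠ 2 := by
    rintro rfl
    rw [hq] at hodd
    have := hodd.pos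
    rcases Nat.even_or_odd 2 with h | h
    · exact (Nat.not_even_iff_odd.2 hodd) ((Nat.even_pow).2 ⟨h, hk0⟩)
    · exact absurd h (by decide)
  have h2 : (2 : F) ≠ 0 := by
    intro h
    have h3 : ((2 : ℕ) : F) = 0 := by exact_mod_cast h
    rw [CharP.cast_eq_zero_iff F p] at h3
    exact hp2 ((Nat.prime_dvd_prime_iff_eq hp Nat.prime_two).1 h3)
  obtain ⟨e⟩ := nonempty_pomega (F := F) hn h2
  rw [co_congr e] at hco
  have hcard : Nat.card (PSp n F) = Nat.card (Omega F (⇑(quadOdd n F))) :=
    (card_psp_eq hn hodd).trans (Nat.card_congr e.toEquiv)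
  obtain ⟨v, hv⟩ : ∃ v : Fin n ⊕ Fin n → F, v ≠ 0 := by
    refine ⟨Pi.single (.inl ⟨0, by omega⟩) 1, fun h => ?_⟩
    have := congrFun h (.inl ⟨0, by omega⟩)
    rw [Pi.single_eq_same] at this
    exact one_ne_zero this
  have hM := two_mul_card_class (F := F) (m := n) (by omega) h2 hv
  rw [← Characters.CentralCharacter.index_centralizer_eq_card] at hM
  obtain ⟨x, hx⟩ : ∃ x : Omega F (⇑(quadOdd n F)), Nat.card (Subgroup.centralizer ({x} : Set (Omega F (⇑(quadOdd n F)))))
      = Nat.card (Subgroup.centralizer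
        ({(QuotientGroup.mk (ClassicalGeometry.SympBasic.transv v 1) : PSp n F)} : Set (PSp n F))) := by
    have := mem_co (QuotientGroup.mk (ClassicalGeometry.SympBasic.transv v 1) : PSp n F)
    rw [hco] at this
    exact this
  have hfin : Finite (Omega F (⇑(quadOdd n F))) := inferInstance
  have hind : (Subgroup.centralizer ({x} : Set (Omega F (⇑(quadOdd n F))))).index = (Subgroup.centralizer
        ({(QuotientGroup.mk (ClassicalGeometry.SympBasic.transv v 1) : PSp n F)} : Set (PSp n F))).index := by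
    have h1 := (Subgroup.centralizer ({x} : Set (Omega F (⇑(quadOdd n F))))).card_mul_index
    have h3 := (Subgroup.centralizer
        ({(QuotientGroup.mk (ClassicalGeometry.SympBasic.transv v 1) : PSp n F)} : Set (PSp n F))).card_mul_index
    rw [hcard, ← h1, hx] at h3
    exact (Nat.eq_of_mul_eq_mul_left Nat.card_pos h3).symm
  rw [← hind] at hM
  have hqq : Nat.card F = Fintype.card F := Nat.card_eq_fintype_card
  have hq3 : 3 ≤ Fintype.card F := by
    obtain ⟨j, hj⟩ := hodd
    have := Fintype.one_lt_card (α := F)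
    omega
  have hpos : 0 < Nat.card F ^ (2 * n) := pow_pos (by omega) _
  have hpd : p ∣ Nat.card F ^ (2 * n) := by
    rw [hqq, hq]
    exact dvd_pow (dvd_pow_self p hk0) (by omega)
  have hxp : ¬ p ∣ (Subgroup.centralizer ({x} : Set (Omega F (⇑(quadOdd n F))))).index := by
    intro h
    have h1 : p ∣ Nat.card F ^ (2 * n) - 1 := by rw [← hM]; exact dvd_mul_of_dvd_right h 2
    have h3 := (Nat.dvd_sub hpd h1)
    rw [Nat.sub_sub_self hpos] at h3
    exact hp.one_lt.ne' (Nat.dvd_one.1 h3)
  have h27 : 27 ≤ Nat.card F ^ (2 * n) := by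
    calc 27 = 3 ^ 3 := by norm_num
      _ ≤ 3 ^ (2 * n) := Nat.pow_le_pow_right (by norm_num) (by omega)
      _ ≤ Nat.card F ^ (2 * n) := Nat.pow_le_pow_left (by omega) _
  have hx1 : x ≠ 1 := by
    rintro rfl
    have h1 : Subgroup.centralizer ({1} : Set (Omega F (⇑(quadOdd n F)))) = ⊤ := by
      rw [eq_top_iff]
      intro g _
      rw [Subgroup.mem_centralizer_singleton_iff, mul_one, one_mul]
    rw [h1, Subgroup.index_top] at hM
    omega
  have key := (fr_quadOdd F (n := n) (by omega)).le_index h2 (quadOdd_nondegenerate h2)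
    (by simp only [Fintype.card_sum, Fintype.card_unit, Fintype.card_fin]; exact ⟨n, by omega⟩)
    (by simp; omega) (p := p) x hx1 hxp
  simp only [Fintype.card_sum, Fintype.card_unit, Fintype.card_fin] at key
  rw [← pow_add, show 1 + (n + n) - 2 + (1 + (n + n) - 4) = 2 + (4 * n - 6) by omega, pow_add] at key
  have key2 := Nat.le_of_mul_le_mul_left key (pow_pos (by omega) _)
  have key3 : Nat.card F ^ (2 * n) ≤ Nat.card F ^ (4 * n - 6) := Nat.pow_le_pow_right (by omega) (by omega)
  omega

end Cfsg.Agent.H977.SepBC
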